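import Cfsg.Agent.Lib.Helper67.LSF.Defs

/-!
# Team project LSF (S5286): package [CONVEX]

The set of free parts of the elements of the group `GG F` is convex in the Cayley tree.
-/

set_option autoImplicit false

namespace Cfsg.Agent.Lib.Helper38.LSF

open Cfsg Cfsg.Agent.Lib.Helper67.LSF

universe u

/-- Two reduced words representing the same element are equal. -/
theorem cvx_reduced_unique {α : Type u} {L L' : List (α × Bool)} (h : FreeGroup.IsReduced L)
    (h' : FreeGroup.IsReduced L') (he : FreeGroup.mk L = FreeGroup.mk L') : L = L' := by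
  classical
  have h1 := congrArg FreeGroup.toWord he
  rw [FreeGroup.toWord_mk, FreeGroup.toWord_mk, h.reduce_eq, h'.reduce_eq] at h1
  exact h1

/-- The formal inverse of a reduced word is reduced. -/
theorem cvx_isReduced_invRev {α : Type u} {L : List (α × Bool)} (h : FreeGroup.IsReduced L) :
    FreeGroup.IsReduced (FreeGroup.invRev L) := by
  classical
  apply FreeGroup.IsReduced.of_reduce_eq
  rw [FreeGroup.reduce_invRev, h.reduce_eq]

/-- Renaming the letters of a reduced word by a permutation keeps it reduced. -/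
theorem cvx_isReduced_map {α : Type u} (π : Equiv.Perm α) {L : List (α × Bool)}
    (h : FreeGroup.IsReduced L) :
    FreeGroup.IsReduced (L.map fun ℓ => (π ℓ.1, ℓ.2)) := by
  unfold FreeGroup.IsReduced at h ⊢
  rw [List.isChain_map]
  exact h.imp fun a b hab hπ => hab (π.injective hπ)

variable {Ω : Type u} [Group Ω] {S : Subgroup Ω}

/-- Suffixes of paths are paths. -/
theorem cvx_path_suffix (hInv : PkgInv.{u}) (F : FusionSystem S) :
    ∀ (A B : List (X F × Bool)) (q : Equiv.Perm S), Path F (A ++ B) q →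
      ∃ q' : Equiv.Perm S, Path F B q' := by
  intro A
  induction A with
  | nil => intro B q h; exact ⟨q, h⟩
  | cons a A ih =>
    intro B q h
    obtain ⟨x, b⟩ := a
    cases b with
    | true =>
      obtain ⟨i, s, q₀, h₀, -, -⟩ := (hInv S F).2.1 x (A ++ B) q h
      exact ih B q₀ h₀
    | false =>
      obtain ⟨i, s, q₀, h₀, -, -⟩ := (hInv S F).2.2 x (A ++ B) q h
      exact ih B q₀ h₀

/-- [CONVEX] -/
theorem pkgConvex (hPath : PkgPath.{u}) (hRed : PkgRed.{u}) (hInv : PkgInv.{u})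
    (hMem : PkgMem.{u}) : PkgConvex.{u} := by
  intro Ω _ S F v L₁ L₂ hred hv hv'
  obtain ⟨g, hg, hgv⟩ := hv
  obtain ⟨g', hg', hgv'⟩ := hv'
  have hk : (g⁻¹ * g')⁻¹ ∈ GG F := (GG F).inv_mem ((GG F).mul_mem ((GG F).inv_mem hg) hg')
  obtain ⟨Lk, qk, hpk, hkeq⟩ := hPath S F _ hk
  obtain ⟨L', hp', hr', hmk⟩ := hRed S F Lk qk hpk
  -- the free part of `g⁻¹ * g'`
  have h1 : (g⁻¹ * g').left =
      FreeGroup.mk ((L₁ ++ L₂).map fun ℓ => (xperm F g.right⁻¹ ℓ.1, ℓ.2)) := by
    rw [SemidirectProduct.mul_left, SemidirectProduct.inv_left, SemidirectProduct.inv_right,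
      hgv', hgv, ← map_mul, inv_mul_cancel_left]
    exact autX_mk (xperm F) g.right⁻¹ (L₁ ++ L₂)
  -- the same free part from the path
  have h2 : (g⁻¹ * g').left = (FreeGroup.mk Lk)⁻¹ := by
    have h3 : g⁻¹ * g' = (SemidirectProduct.inl (FreeGroup.mk Lk))⁻¹ *
        (SemidirectProduct.inr qk : Ghat F)⁻¹ := by
      rw [← mul_inv_rev, ← hkeq, inv_inv]
    rw [h3, ← map_inv, ← map_inv, SemidirectProduct.mul_left, SemidirectProduct.left_inl,
      SemidirectProduct.right_inl, SemidirectProduct.left_inr]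
    simp
  have h4 : FreeGroup.mk L' = FreeGroup.mk (FreeGroup.invRev
      ((L₁ ++ L₂).map fun ℓ => (xperm F g.right⁻¹ ℓ.1, ℓ.2))) := by
    rw [hmk, ← FreeGroup.inv_mk, ← h1, h2, inv_inv]
  have h5 : L' = FreeGroup.invRev ((L₁ ++ L₂).map fun ℓ => (xperm F g.right⁻¹ ℓ.1, ℓ.2)) :=
    cvx_reduced_unique hr' (cvx_isReduced_invRev (cvx_isReduced_map _ hred)) h4
  rw [List.map_append, FreeGroup.invRev_append] at h5
  rw [h5] at hp'
  obtain ⟨q'', hq''⟩ := cvx_path_suffix hInv F _ _ qk hp'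
  have hk' := hMem S F _ q'' hq''
  refine ⟨g * (SemidirectProduct.inr q'' * SemidirectProduct.inl (FreeGroup.mk (FreeGroup.invRev
      (L₁.map fun ℓ => (xperm F g.right⁻¹ ℓ.1, ℓ.2)))))⁻¹,
    (GG F).mul_mem hg ((GG F).inv_mem hk'), ?_⟩
  have h6 : (SemidirectProduct.inr q'' * SemidirectProduct.inl (FreeGroup.mk (FreeGroup.invRev
      (L₁.map fun ℓ => (xperm F g.right⁻¹ ℓ.1, ℓ.2)))) : Ghat F)⁻¹ =
      SemidirectProduct.inl (FreeGroup.mk (L₁.map fun ℓ => (xperm F g.right⁻¹ ℓ.1, ℓ.2))) *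
        SemidirectProduct.inr q''⁻¹ := by
    rw [mul_inv_rev, ← map_inv, ← map_inv, FreeGroup.inv_mk, FreeGroup.invRev_invRev]
  rw [h6, SemidirectProduct.mul_left, SemidirectProduct.mul_left, SemidirectProduct.left_inl,
    SemidirectProduct.right_inl, SemidirectProduct.left_inr, map_one, hgv]
  have h7 : FreeGroup.mk (L₁.map fun ℓ => (xperm F g.right⁻¹ ℓ.1, ℓ.2)) =
      autF F g.right⁻¹ (FreeGroup.mk L₁) := (autX_mk (xperm F) g.right⁻¹ L₁).symm
  rw [h7, mul_one, ← MulAut.mul_apply, ← map_mul, mul_inv_cancel, map_one,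
    MulAut.one_apply]

end Cfsg.Agent.Lib.Helper38.LSF
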